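import Mathlib

/-!
# A simple group normalising an abelian subgroup: order arguments (helper975, for S5923)
-/

set_option autoImplicit false

namespace Cfsg.Agent.H975.L5

open Subgroup

section Gen

variable {S G : Type*} [Group S] [Group G] {f : S →* G} {R : Subgroup G}

/-- the conjugation action of `S` on `R` through `f`. -/
noncomputable def conjHom (f : S →* G) (R : Subgroup G) (hn : f.range ≤ normalizer (R : Set G)) : S →* MulAut R :=
  R.normalizerMonoidHom.comp (f.codRestrict _ fun x => hn ⟨x, rfl⟩)

theorem conjHom_coe (hn : f.range ≤ normalizer (R : Set G)) (x : S) (r : R) :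
    ((conjHom f R hn x r : R) : G) = f x * r * (f x)⁻¹ := rfl

/-- the preimage of `R` is normal. -/
theorem comap_normal (hn : f.range ≤ normalizer (R : Set G)) : (R.comap f).Normal := ⟨fun x hx g => by
  rw [mem_comap] at hx ⊢
  have h := (mem_normalizer_iff.1 (hn ⟨g, rfl⟩) (f x)).1 hx
  rw [map_mul, map_mul, map_inv]
  exact h⟩

/-- `|R| |S|` divides `|G|`. -/
theorem card_mul_dvd [Finite G] (hn : f.range ≤ normalizer (R : Set G))
    (hd : ∀ x, f x ∈ R → x = 1) : Nat.card R * Nat.card S ∣ Nat.card G := by
  let F : R ⋊[conjHom f R hn] S →* G := SemidirectProduct.lift R.subtype f (fun x => by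
    ext r
    rfl)
  have hF : Function.Injective F := by
    rw [injective_iff_map_eq_one]
    intro y hy
    have h1 : (y.left : G) * f y.right = 1 := by
      have h2 : F y = (y.left : G) * f y.right := by
        conv_lhs => rw [← SemidirectProduct.inl_left_mul_inr_right y]
        rw [map_mul, SemidirectProduct.lift_inl, SemidirectProduct.lift_inr]
        rfl
      rw [← h2, hy]
    have h3 : f y.right ∈ R := by
      rw [eq_inv_of_mul_eq_one_right h1]
      exact R.inv_mem y.left.2
    have h4 := hd _ h3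
    rw [h4, map_one, mul_one] at h1
    refine SemidirectProduct.ext (Subtype.ext h1) h4
  rw [← SemidirectProduct.card (φ := conjHom f R hn)]
  exact Subgroup.card_dvd_of_injective F hF

/-- `S` simple, with a prime `p > |R|` dividing `|S|`: `S` centralises `R`. -/
theorem centralise [Finite G] [IsSimpleGroup S] (hn : f.range ≤ normalizer (R : Set G)) {p : ℕ} (hp : p.Prime)
    (hpS : p ∣ Nat.card S) (hlt : Nat.card R < p) (x : S) {r : G} (hr : r ∈ R) : f x * r = r * f x := by
  have hfR : Finite R := inferInstance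
  rcases (MonoidHom.normal_ker (conjHom f R hn)).eq_bot_or_eq_top with h | h
  · exfalso
    have hinj : Function.Injective (conjHom f R hn) := (MonoidHom.ker_eq_bot_iff _).1 h
    let e : MulAut R →* Equiv.Perm R := MulAut.toPerm R
    have he : Function.Injective e := fun a b hab => MulEquiv.ext fun r => congrArg (fun σ : Equiv.Perm R => σ r) hab
    have h1 := Subgroup.card_dvd_of_injective (e.comp (conjHom f R hn)) (he.comp hinj)
    rw [Nat.card_perm] at h1
    have h2 := (hp.dvd_factorial).1 (hpS.trans h1)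
    omega
  · have h1 : x ∈ (conjHom f R hn).ker := by rw [h]; trivial
    have h2 := congrArg (fun σ : MulAut R => ((σ ⟨r, hr⟩ : R) : G)) ((MonoidHom.mem_ker).1 h1)
    have h3 : f x * r * (f x)⁻¹ = r := h2
    rwa [mul_inv_eq_iff_eq_mul] at h3

end Gen

section Fix

/-- a `p`-group of linear maps in characteristic `p` has a nonzero fixed vector. -/
theorem exists_fix {p : ℕ} [Fact p.Prime] {R V : Type*} [Group R] [Finite R] (hR : IsPGroup p R) [AddCommGroup V] [Finite V]
    (hV : p ∣ Nat.card V) (ρ : R → V → V) (h1 : ∀ v, ρ 1 v = v) (hm : ∀ g h v, ρ (g * h) v = ρ g (ρ h v))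
    (h0 : ∀ g, ρ g 0 = 0) : ∃ v, v ≠ 0 ∧ ∀ g, ρ g v = v := by
  let _ : MulAction R V := { smul := ρ, one_smul := h1, mul_smul := hm }
  have hd : p ∣ Nat.card (MulAction.fixedPoints R V) :=
    (Nat.modEq_zero_iff_dvd.1 ((hR.card_modEq_card_fixedPoints V).symm.trans (Nat.modEq_zero_iff_dvd.2 hV)))
  have hz : (0 : V) ∈ MulAction.fixedPoints R V := fun g => h0 g
  have hpos : 0 < Nat.card (MulAction.fixedPoints R V) := Nat.card_pos_iff.2 ⟨⟨⟨0, hz⟩⟩, inferInstance⟩
  have h2 : 1 < Nat.card (MulAction.fixedPoints R V) := by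
    have h3 := Nat.le_of_dvd hpos hd
    have h4 := (Fact.out : p.Prime).two_le
    omega
  obtain ⟨v, hv⟩ : ∃ v : MulAction.fixedPoints R V, v ≠ ⟨0, hz⟩ := by
    have := Finite.one_lt_card_iff_nontrivial.1 h2
    exact exists_ne _
  exact ⟨v.1, fun h => hv (Subtype.ext h), fun g => v.2 g⟩

end Fix

end Cfsg.Agent.H975.L5
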