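import Cfsg.Agent.H865.L5.Base
import Cfsg.Agent.H975.L5.Gen
import Cfsg.Agent.S1065

/-!
# S5923, pieces M1 and M2: `f(SL₃(5))` normalises no nontrivial 3-subgroup and no nontrivial elementary abelian 5-subgroup
(helper975)
-/

set_option autoImplicit false
set_option linter.unusedSectionVars false

namespace Cfsg.Agent.H975.L5

open Subgroup Cfsg Cfsg.Lie Cfsg.Lie.ChevalleyDatum
open Cfsg.Agent.H865.L5

/-- `ac` is faithful. -/
theorem eq_one_of_ac {K : Type} [Field K] {g : ↥(chevE8.group K)} (h : ∀ v, ac g v = v) : g = 1 := by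
  apply Subtype.ext
  apply Units.ext
  have h1 : Matrix.toLin' ((g : GL chevE8.Idx K) : Matrix chevE8.Idx chevE8.Idx K) = Matrix.toLin' 1 := by
    rw [Matrix.toLin'_one]
    exact LinearMap.ext h
  exact Matrix.toLin'.injective h1

theorem ac_conj {K : Type} [Field K] (g r : ↥(chevE8.group K)) (v : chevE8.Idx → K) :
    ac r (ac g v) = ac g (ac (g⁻¹ * r * g) v) := by
  rw [← ac_mul, ← ac_mul]
  congr 1
  group

/-- M1, from irreducibility. -/
theorem no_three_of {f : SL35 →* G3}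
    (hirr : ∀ W : Submodule (ZMod 3) (chevE8.Idx → ZMod 3), (∀ x, ∀ v ∈ W, ac (f x) v ∈ W) → W = ⊥ ∨ W = ⊤)
    {R : Subgroup G3} (hR : R ≠ ⊥) (h3 : IsPGroup 3 R) (hn : f.range ≤ Subgroup.normalizer (R : Set G3)) : False := by
  have hfin : Finite G3 := inferInstance
  have hRf : Finite R := inferInstance
  have hV : 3 ∣ Nat.card (chevE8.Idx → ZMod 3) := by
    rw [Nat.card_fun, Nat.card_zmod]
    refine dvd_pow_self 3 ?_
    exact (Nat.card_pos_iff.2 ⟨⟨Sum.inl (0 : Fin 8)⟩, inferInstance⟩).ne'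
  obtain ⟨v, hv0, hv⟩ := exists_fix (p := 3) h3 hV (fun (r : R) v => ac (r : G3) v) (fun v => ac_one v)
    (fun g h v => ac_mul _ _ v) (fun g => map_zero _)
  have hinv : ∀ x, ∀ v ∈ Fx (R : Set G3), ac (f x) v ∈ Fx (R : Set G3) := by
    intro x v hv r hr
    rw [ac_conj, hv]
    exact ((mem_normalizer_iff'' (g := f x)).1 (hn ⟨x, rfl⟩) r).1 hr
  rcases hirr (Fx (R : Set G3)) hinv with h | h
  · apply hv0
    have h1 : v ∈ Fx (R : Set G3) := fun r hr => hv ⟨r, hr⟩
    rw [h] at h1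
    exact (Submodule.mem_bot _).1 h1
  · apply hR
    rw [eq_bot_iff]
    intro r hr
    rw [Subgroup.mem_bot]
    apply eq_one_of_ac
    intro v
    have h1 : v ∈ Fx (R : Set G3) := by rw [h]; trivial
    exact h1 r hr

/-- the order of `E₈(3)` is not divisible by `5⁶`. -/
theorem not_dvd_G3 : ¬ 5 ^ 6 ∣ Nat.card G3 := by
  rw [S1065.result (F := ZMod 3) (ZMod.card 3)]
  norm_num

/-- M2, with the facts on `SL₃(5)` as hypotheses. -/
theorem no_five_of (hcard : Nat.card SL35 = 372000) (hsimple : IsSimpleGroup SL35)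
    {f : SL35 →* G3} (h : GoodIn ⊤ f) (hf : Function.Injective f) {R : Subgroup G3}
    (hR : R ≠ ⊥) (h5 : ∀ x ∈ R, x ^ 5 = 1) (hn : f.range ≤ Subgroup.normalizer (R : Set G3)) : False := by
  have hfin : Finite G3 := inferInstance
  have hRf : Finite R := inferInstance
  -- `f x ∈ R` implies `x = 1`
  have hd : ∀ x, f x ∈ R → x = 1 := by
    intro x hx
    rcases (comap_normal hn).eq_bot_or_eq_top with h1 | h1
    · have h2 : x ∈ R.comap f := hx
      rw [h1] at h2
      exact h2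
    · exfalso
      have h2 : z0 ∈ R.comap f := by rw [h1]; trivial
      have h3 := h5 _ h2
      rw [← map_pow, ← map_one f] at h3
      have h4 := hf h3
      have h5 : (z0 ^ 5).1 0 0 = (1 : SL35).1 0 0 := by rw [h4]
      revert h5
      decide
  have hp : IsPGroup 5 R := by
    intro x
    exact ⟨1, Subtype.ext (by rw [pow_one]; exact h5 x x.2)⟩
  obtain ⟨m, hm⟩ := IsPGroup.iff_card.1 hp
  have h1 := card_mul_dvd hn hd
  rw [hm, hcard] at h1
  have hm2 : m ≤ 2 := by
    by_contra hcon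
    apply not_dvd_G3
    refine dvd_trans ?_ h1
    have h2 : 5 ^ 3 ∣ 5 ^ m := pow_dvd_pow 5 (by omega)
    have h3 : 5 ^ 3 ∣ 372000 := by norm_num
    rw [show (5 : ℕ) ^ 6 = 5 ^ 3 * 5 ^ 3 by norm_num]
    exact Nat.mul_dvd_mul h2 h3
  have hlt : Nat.card R < 31 := by
    rw [hm]
    have : 5 ^ m ≤ 5 ^ 2 := Nat.pow_le_pow_right (by norm_num) hm2
    omega
  apply hR
  rw [eq_bot_iff]
  intro r hr
  rw [Subgroup.mem_bot]
  have hc : ∀ x, f x * r = r * f x := fun x =>
    centralise hn (by norm_num : Nat.Prime 31) (by rw [hcard]; norm_num) hlt x hr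
  obtain ⟨s, -, rfl⟩ := h.centS r trivial fun s _ => (hc s).symm
  rw [hd s hr, map_one]

end Cfsg.Agent.H975.L5
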